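import Mathlib

/-! Permutations agreeing on triples with affine maps. -/

namespace CfsgLib.ThreeClosure

variable {p : ℕ} [Fact p.Prime] {V : Type*} [AddCommGroup V] [Module (ZMod p) V]

/-- `τ` is an affine map. -/
def IsAffine (τ : Equiv.Perm V) : Prop := ∃ (A : V ≃ₗ[ZMod p] V) (b : V), ∀ x, τ x = A x + b

theorem isAffine_of_triples (hp : p ≠ 2) (G : Subgroup (Equiv.Perm V))
    (haff : ∀ g ∈ G, IsAffine (p := p) g) (σ : Equiv.Perm V)
    (hσ : ∀ t : Fin 3 → V, ∃ g ∈ G, ∀ i, σ (t i) = g (t i)) : IsAffine (p := p) σ := by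
  have h2 : (2 : ZMod p) ≠ 0 := fun h => hp
    ((Nat.prime_dvd_prime_iff_eq Fact.out Nat.prime_two).1
      ((ZMod.natCast_eq_zero_iff 2 p).1 h))
  have hmid : ∀ a b : V, σ ((2 : ZMod p)⁻¹ • (a + b)) = (2 : ZMod p)⁻¹ • (σ a + σ b) := by
    intro a b
    obtain ⟨g, hg, hgt⟩ := hσ ![a, b, (2 : ZMod p)⁻¹ • (a + b)]
    obtain ⟨A, c, hA⟩ := haff g hg
    have e0 := hgt 0
    have e1 := hgt 1
    have e2 := hgt 2
    simp only [Matrix.cons_val_zero, Matrix.cons_val_one, Matrix.cons_val] at e0 e1 e2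
    rw [e2, e0, e1, hA, hA, hA, map_smul, map_add,
      show (A a + c) + (A b + c) = (A a + A b) + (2 : ZMod p) • c by rw [two_smul]; abel,
      smul_add _ _ ((2 : ZMod p) • c), inv_smul_smul₀ h2]
  let τ : V → V := fun x => σ x - σ 0
  have τ0 : τ 0 = 0 := sub_self _
  have τmid : ∀ a b, τ ((2 : ZMod p)⁻¹ • (a + b)) = (2 : ZMod p)⁻¹ • (τ a + τ b) := by
    intro a b
    simp only [τ, hmid]
    rw [show σ a - σ 0 + (σ b - σ 0) = (σ a + σ b) - (2 : ZMod p) • σ 0 by rw [two_smul]; abel,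
      smul_sub, smul_smul, inv_mul_cancel₀ h2, one_smul]
  have τadd : ∀ a b, τ (a + b) = τ a + τ b := by
    intro a b
    have h := τmid (a + b) 0
    rw [add_zero, τ0, add_zero, τmid] at h
    exact (smul_right_injective V (inv_ne_zero h2) h).symm
  let L : V →ₗ[ZMod p] V := AddMonoidHom.toZModLinearMap p (AddMonoidHom.mk' τ τadd)
  have hL : Function.Bijective L := by
    show Function.Bijective (fun x => σ x - σ 0)
    exact (σ.trans (Equiv.subRight (σ 0))).bijective
  exact ⟨LinearEquiv.ofBijective L hL, σ 0, fun x => (sub_add_cancel (σ x) (σ 0)).symm⟩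

theorem exists_equiv_extend [FiniteDimensional (ZMod p) V] {ι : Type*} [Fintype ι] (u v : ι → V)
    (hu : LinearIndependent (ZMod p) u) (hv : LinearIndependent (ZMod p) v) :
    ∃ A : V ≃ₗ[ZMod p] V, ∀ i, A (u i) = v i := by
  classical
  obtain ⟨U', hU⟩ := Submodule.exists_isCompl (Submodule.span (ZMod p) (Set.range u))
  obtain ⟨V', hV⟩ := Submodule.exists_isCompl (Submodule.span (ZMod p) (Set.range v))
  have e1 := Submodule.finrank_add_eq_of_isCompl hU
  have e2 := Submodule.finrank_add_eq_of_isCompl hV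
  rw [finrank_span_eq_card hu] at e1
  rw [finrank_span_eq_card hv] at e2
  let f : Submodule.span (ZMod p) (Set.range u) ≃ₗ[ZMod p] Submodule.span (ZMod p) (Set.range v) :=
    (Module.Basis.span hu).equiv (Module.Basis.span hv) (Equiv.refl _)
  let g : U' ≃ₗ[ZMod p] V' := LinearEquiv.ofFinrankEq _ _ (by omega)
  refine ⟨(Submodule.prodEquivOfIsCompl _ _ hU).symm ≪≫ₗ (f.prodCongr g) ≪≫ₗ
    Submodule.prodEquivOfIsCompl _ _ hV, fun i => ?_⟩
  have hs : (Submodule.prodEquivOfIsCompl _ _ hU).symm (u i) = (Module.Basis.span hu i, 0) := by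
    rw [LinearEquiv.symm_apply_eq]
    simp [Module.Basis.span_apply]
  rw [LinearEquiv.trans_apply, LinearEquiv.trans_apply, hs, LinearEquiv.prodCongr_apply,
    map_zero, Submodule.coe_prodEquivOfIsCompl']
  simp only [f, Module.Basis.equiv_apply, Equiv.refl_apply, Submodule.coe_zero, add_zero]
  exact congrArg Subtype.val (Module.Basis.span_apply hv i)

end CfsgLib.ThreeClosure
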